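import Groth.Agent.EtpbcB.BCMor
import Groth.Agent.EtpbcA.LAUnit
import Groth.Agent.Sga4h.LocCohLES

/-!
# Local cohomology sheaves and base change

`nonempty_pull_locCoh_iso`: for a morphism `g : X' ⟶ X` satisfying base change (`BCMor`), an open immersion
`j : U ⟶ X` which is quasi-compact and its base change `j' : U' ⟶ X'`, the inverse image of `locCoh j q F` is
isomorphic to `locCoh j' q (g^* F)`.
-/

set_option autoImplicit false
universe u
open CategoryTheory CategoryTheory.Limits AlgebraicGeometry Opposite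

namespace Groth.Agent.Sga2lef.H101.LocCohBC

open EtCoh Groth.Agent.EtpbcB.BCU Groth.Agent.EtpbcB.BCCalc Groth.Agent.EtpbcA.LA
  Groth.Agent.Sga4h.LocCohLES

variable {X U X' U' : Scheme.{u}} {j : U ⟶ X} {j' : U' ⟶ X'} {g : X' ⟶ X} {g' : U' ⟶ U}

/-- The kernels of the units correspond, given base change in degree zero. -/
theorem nonempty_kernel_iso (w : g' ≫ j = j' ≫ g) (F : Ab X)
    (h0 : IsIso (baseChange0 j g j' g' w ((pull j).obj F))) :
    Nonempty ((pull g).obj (kernel (EtDual.unitApp j F)) ≅ kernel (EtDual.unitApp j' ((pull g).obj F))) := by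
  have : PreservesFiniteLimits (pull g) := Groth.Agent.S0101.result g
  have e := pull_unit_baseChange0 w F
  exact ⟨PreservesKernel.iso (pull g) (EtDual.unitApp j F) ≪≫
    (kernelCompMono ((pull g).map (EtDual.unitApp j F)) (baseChange0 j g j' g' w ((pull j).obj F))).symm ≪≫
    kernelIsoOfEq e ≪≫ kernelCompMono (EtDual.unitApp j' ((pull g).obj F)) ((push j').map ((kap w).hom.app F))⟩

/-- The cokernels of the units correspond, given base change in degree zero. -/
theorem nonempty_cokernel_iso (w : g' ≫ j = j' ≫ g) (F : Ab X)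
    (h0 : IsIso (baseChange0 j g j' g' w ((pull j).obj F))) :
    Nonempty ((pull g).obj (cokernel (EtDual.unitApp j F)) ≅
      cokernel (EtDual.unitApp j' ((pull g).obj F))) := by
  have e := pull_unit_baseChange0 w F
  exact ⟨PreservesCokernel.iso (pull g) (EtDual.unitApp j F) ≪≫
    (cokernelCompIsIso ((pull g).map (EtDual.unitApp j F)) (baseChange0 j g j' g' w ((pull j).obj F))).symm ≪≫
    cokernelIsoOfEq e ≪≫
    cokernelCompIsIso (EtDual.unitApp j' ((pull g).obj F)) ((push j').map ((kap w).hom.app F))⟩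

/-- `locCoh j 1 F` is the cokernel of the unit. -/
theorem nonempty_locCoh_one_iso (j : U ⟶ X) [IsOpenImmersion j] (F : Ab X) :
    Nonempty ((EtDual.locCoh j 1).obj F ≅ cokernel (EtDual.unitApp j F)) := by
  have h := exact₀ j F
  have : Epi (ShortComplex.mk (EtDual.unitApp j F) (δ₀ j F) (unit_δ₀ j F)).g :=
    inferInstanceAs (Epi (δ₀ j F))
  exact ⟨IsColimit.coconePointUniqueUpToIso h.gIsCokernel (colimit.isColimit _)⟩

/-- Local cohomology sheaves commute with inverse image along a morphism satisfying base change. -/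
theorem nonempty_pull_locCoh_iso {S : Scheme.{u}} (hg : BCMor S g) [IsOpenImmersion j] [QuasiCompact j]
    [IsOpenImmersion j'] (sq : IsPullback g' j' j g) (F : Ab X)
    (hF : EtPBC.IsTorsionInvertibleOn S F) (q : ℕ) :
    Nonempty ((pull g).obj ((EtDual.locCoh j q).obj F) ≅
      (EtDual.locCoh j' q).obj ((pull g).obj F)) := by
  have hF' : EtPBC.IsTorsionInvertibleOn S ((pull j).obj F) :=
    Etcore.Torsion.isTorsionInvertibleOn_pull S j F hF
  have hb := hg j j' g' sq ((pull j).obj F) hF'
  rcases q with _ | _ | q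
  · obtain ⟨e⟩ := nonempty_kernel_iso sq.w F hb.2
    exact ⟨(pull g).mapIso ((locCohZeroIso j).app F) ≪≫ e ≪≫ ((locCohZeroIso j').app ((pull g).obj F)).symm⟩
  · obtain ⟨e⟩ := nonempty_cokernel_iso sq.w F hb.2
    obtain ⟨e1⟩ := nonempty_locCoh_one_iso j F
    obtain ⟨e2⟩ := nonempty_locCoh_one_iso j' ((pull g).obj F)
    exact ⟨(pull g).mapIso e1 ≪≫ e ≪≫ e2.symm⟩
  · obtain ⟨e⟩ := hb.1 (q + 1)
    exact ⟨(pull g).mapIso (locCohSuccIso j F q).symm ≪≫ e ≪≫
      (Rpush j' (q + 1)).mapIso ((kap sq.w).symm.app F) ≪≫ locCohSuccIso j' ((pull g).obj F) q⟩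

/-- Étale depth does not decrease under inverse image along a morphism satisfying base change. -/
theorem isZero_locCoh_pull {S : Scheme.{u}} (hg : BCMor S g) [IsOpenImmersion j] [QuasiCompact j]
    [IsOpenImmersion j'] (sq : IsPullback g' j' j g) (F : Ab X)
    (hF : EtPBC.IsTorsionInvertibleOn S F) (q : ℕ) (h : IsZero ((EtDual.locCoh j q).obj F)) :
    IsZero ((EtDual.locCoh j' q).obj ((pull g).obj F)) := by
  obtain ⟨e⟩ := nonempty_pull_locCoh_iso hg sq F hF q
  exact ((pull g).map_isZero h).of_iso e.symm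

end Groth.Agent.Sga2lef.H101.LocCohBC
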